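import Cfsg.Agent.H442.J3F.Lin
import Cfsg.Agent.H756.HM.Defs
import Cfsg.Agent.H788.SF.Frame

/-!
# The configuration `Big` in a group with the 2-local structure of `J₃` (helper442, S5175)

`big_of` : `TwoE S z E₁ E₂` and `GL4 E₁ w` give `Big (groupFusionSystem S) K E₁ (E₁ ⊔ E₂) x` with `fixS E₁ E = ⊥`.
-/

set_option autoImplicit false

namespace Cfsg.Agent.H442.J3F

open Subgroup Cfsg Cfsg.FusionSystem Cfsg.Agent.H788.SF Cfsg.Agent.H756.HM Multiplicative
open scoped MatrixGroups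

variable {G : Type*} [Group G] {S : Subgroup G} {z : G} {E₁ E₂ : Subgroup G}

theorem sup_le (h : TwoE S z E₁ E₂) : E₁ ⊔ E₂ ≤ S := _root_.sup_le h.le₁ h.le₂

theorem le_normalizer (h : TwoE S z E₁ E₂) : E₁ ⊔ E₂ ≤ normalizer (E₁ : Set G) := by
  intro t ht
  have := h.finite₁
  exact mem_normalizer_of_conj fun x hx => h.conj_mem₁ ht hx

/-- elements of `S` normalizing `E₁` -/
theorem mem_sup_of_normalizer (h : TwoE S z E₁ E₂) {t : G} (ht : t ∈ S) (hn : t ∈ normalizer (E₁ : Set G)) :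
    t ∈ E₁ ⊔ E₂ := by
  by_contra hcon
  have h1 := (h.outer ht hcon).1
  have := h.finite₂
  apply h.ne
  apply Subgroup.eq_of_le_of_card_ge _ (by rw [h.card₁, h.card₂])
  intro y hy
  have h2 : t⁻¹ * y * t ∈ E₁ := by
    have := (Subgroup.mem_normalizer_iff.1 (inv_mem hn) y).1 hy
    rwa [inv_inv] at this
  have h3 := h1 _ h2
  have h4 : t * (t⁻¹ * y * t) * t⁻¹ = y := by group
  rwa [h4] at h3

theorem normalizerIn_eq (h : TwoE S z E₁ E₂) : normalizerIn S E₁ = E₁ ⊔ E₂ := by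
  apply le_antisymm
  · intro t ht
    exact mem_sup_of_normalizer h ht.1 ht.2
  · intro t ht
    exact ⟨sup_le h ht, le_normalizer h ht⟩

theorem centralizerIn_eq (h : TwoE S z E₁ E₂) : centralizerIn S E₁ = E₁ := by
  apply le_antisymm
  · intro t ht
    refine h.cen₁ ht.1 fun x hx => ?_
    exact (mem_centralizer_iff.1 ht.2 x hx).symm
  · intro t ht
    refine ⟨h.le₁ ht, mem_centralizer_iff.2 fun x hx => ?_⟩
    exact TwoE.comm_of_sq h.sq₁ hx ht

theorem exists_swap (h : TwoE S z E₁ E₂) : ∃ x ∈ S, x ∉ E₁ ⊔ E₂ ∧ cj x E₁ = E₂ ∧ cj x E₂ = E₁ := by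
  obtain ⟨x, hx, h1⟩ := h.swap
  have hx2 : x ∉ E₁ ⊔ E₂ := by
    intro hcon
    have h2 := le_normalizer h hcon
    have := h.finite₂
    apply h.ne
    apply Subgroup.eq_of_le_of_card_ge _ (by rw [h.card₁, h.card₂])
    intro y hy
    have h2 : x⁻¹ * y * x ∈ E₁ := by
      have := (Subgroup.mem_normalizer_iff.1 (inv_mem h2) y).1 hy
      rwa [inv_inv] at this
    have h3 := h1 _ h2
    have h4 : x * (x⁻¹ * y * x) * x⁻¹ = y := by group
    rwa [h4] at h3
  obtain ⟨h2, h3, -⟩ := h.outer hx hx2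
  have := h.finite₂
  have := h.finite₁
  refine ⟨x, hx, hx2, ?_, ?_⟩
  · apply Subgroup.eq_of_le_of_card_ge
    · rintro _ ⟨y, hy, rfl⟩
      exact h2 y hy
    · rw [Subgroup.card_map_of_injective (MulAut.conj x).injective, h.card₁, h.card₂]
  · apply Subgroup.eq_of_le_of_card_ge
    · rintro _ ⟨y, hy, rfl⟩
      exact h3 y hy
    · rw [Subgroup.card_map_of_injective (MulAut.conj x).injective, h.card₁, h.card₂]

theorem relIndex_eq (h : TwoE S z E₁ E₂) : (E₁ ⊔ E₂).relIndex S = 2 := by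
  obtain ⟨x, hx, hx2, -, -⟩ := exists_swap h
  rw [Subgroup.relIndex_eq_two_iff]
  refine ⟨x, hx, fun b hb => ?_⟩
  by_cases h1 : b ∈ E₁ ⊔ E₂
  · refine Or.inr ⟨h1, fun h2 => hx2 ?_⟩
    have := mul_mem (inv_mem h1) h2
    rwa [inv_mul_cancel_left] at this
  · exact Or.inl ⟨h.mul_outer hb hx h1 hx2, h1⟩

theorem card_sup (h : TwoE S z E₁ E₂) : Nat.card ↥(E₁ ⊔ E₂) = 64 := by
  have h1 := ((E₁ ⊔ E₂).subgroupOf S).card_mul_index
  have h2 : ((E₁ ⊔ E₂).subgroupOf S).index = 2 := relIndex_eq h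
  rw [h2, Nat.card_congr (Subgroup.subgroupOfEquivOfLe (sup_le h)).toEquiv, h.cardT] at h1
  omega

theorem normalizer_sup (h : TwoE S z E₁ E₂) {x : G} (hx : x ∈ S) : x ∈ normalizer ((E₁ ⊔ E₂ : Subgroup G) : Set G) := by
  by_cases hx2 : x ∈ E₁ ⊔ E₂
  · exact Subgroup.le_normalizer hx2
  · have : Finite ↥(E₁ ⊔ E₂) := Nat.finite_of_card_ne_zero (by rw [card_sup h]; norm_num)
    refine mem_normalizer_of_conj fun y hy => ?_
    obtain ⟨h2, h3, -⟩ := h.outer hx hx2
    obtain ⟨a, ha, b, hb, rfl⟩ := (h.mem_sup y).1 hy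
    have h4 : x * (a * b) * x⁻¹ = (x * a * x⁻¹) * (x * b * x⁻¹) := by group
    rw [h4]
    exact mul_mem (Subgroup.mem_sup_right (h2 a ha)) (Subgroup.mem_sup_left (h3 b hb))

variable {w : G}

theorem ker_eq (h : TwoE S z E₁ E₂) (hw : GL4 E₁ w) :
    E₁.normalizerMonoidHom.ker = E₁.subgroupOf (normalizer (E₁ : Set G)) := by
  ext n
  rw [MonoidHom.mem_ker, Subgroup.mem_subgroupOf]
  constructor
  · intro hn
    apply hw.cen
    intro x hx
    have h1 := congrArg (fun α : MulAut E₁ => ((α ⟨x, hx⟩ : E₁) : G)) hn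
    have h2 : (n : G) * x * (n : G)⁻¹ = x := h1
    rw [mul_inv_eq_iff_eq_mul] at h2
    exact h2
  · intro hn
    ext x
    change (n : G) * x * (n : G)⁻¹ = x
    rw [TwoE.comm_of_sq h.sq₁ hn x.2, mul_inv_cancel_right]

theorem card_normalizer (h : TwoE S z E₁ E₂) (hw : GL4 E₁ w) : Nat.card (normalizer (E₁ : Set G)) = 2880 := by
  rw [Subgroup.card_eq_card_quotient_mul_card_subgroup E₁.normalizerMonoidHom.ker,
    Nat.card_congr (QuotientGroup.quotientKerEquivRange E₁.normalizerMonoidHom).toEquiv, ker_eq h hw,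
    Nat.card_congr (Subgroup.subgroupOfEquivOfLe Subgroup.le_normalizer).toEquiv, h.card₁]
  have h1 : Nat.card E₁.normalizerMonoidHom.range = 180 := hw.card
  rw [h1]

theorem fullyNormalized (h : TwoE S z E₁ E₂) (hw : GL4 E₁ w) : (groupFusionSystem S).IsFullyNormalized E₁ := by
  refine ⟨h.le₁, ?_⟩
  rintro Q ⟨φ, ⟨-, -, g, hg⟩, rfl⟩
  rw [normalizerIn_eq h, card_sup h]
  have hQ : φ.range = E₁.map (MulAut.conj g).toMonoidHom := by
    ext y
    constructor
    · rintro ⟨x, rfl⟩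
      exact ⟨x, x.2, (hg x).symm⟩
    · rintro ⟨x, hx, rfl⟩
      exact ⟨⟨x, hx⟩, hg _⟩
  have h1 : Nat.card ↥(normalizerIn S φ.range) ∣ 128 := by
    rw [← h.cardT]
    exact Subgroup.card_dvd_of_le inf_le_left
  have h2 : Nat.card ↥(normalizerIn S φ.range) ∣ 2880 := by
    have h3 : Nat.card (normalizer (φ.range : Set G)) = 2880 := by
      have h4 : normalizer ((E₁.map (MulAut.conj g).toMonoidHom : Subgroup G) : Set G) =
          (normalizer (E₁ : Set G)).map (MulAut.conj g).toMonoidHom := (Subgroup.map_equiv_normalizer_eq E₁ _).symm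
      rw [hQ, h4, Subgroup.card_map_of_injective (MulAut.conj g).injective, card_normalizer h hw]
    rw [← h3]
    exact Subgroup.card_dvd_of_le inf_le_right
  have h3 := Nat.dvd_gcd h1 h2
  exact Nat.le_of_dvd (by norm_num) (h3.trans (by norm_num))

theorem card_induced (h : TwoE S z E₁ E₂) (hw : GL4 E₁ w) : Nat.card (autInducedBy E₂ E₁) = 4 := by
  have hle : E₂ ≤ normalizer (E₁ : Set G) := le_sup_right.trans (le_normalizer h)
  let f : E₂ →* MulAut E₁ := E₁.normalizerMonoidHom.comp (Subgroup.inclusion hle)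
  have hr : f.range = autInducedBy E₂ E₁ := by
    ext α
    rw [H802.mem_autInducedBy_iff]
    constructor
    · rintro ⟨b, rfl⟩
      exact ⟨b, b.2, fun x => rfl⟩
    · rintro ⟨g, hg, hα⟩
      refine ⟨⟨g, hg⟩, ?_⟩
      ext x
      exact (hα x).symm
  have hk : f.ker = E₁.subgroupOf E₂ := by
    ext b
    rw [MonoidHom.mem_ker, Subgroup.mem_subgroupOf]
    have h1 : f b = 1 ↔ Subgroup.inclusion hle b ∈ E₁.normalizerMonoidHom.ker := MonoidHom.mem_ker.symm
    rw [h1, ker_eq h hw, Subgroup.mem_subgroupOf]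
    rfl
  have h1 : Nat.card f.range * Nat.card f.ker = 16 := by
    rw [← h.card₂, Subgroup.card_eq_card_quotient_mul_card_subgroup f.ker]
    congr 1
    exact Nat.card_congr (QuotientGroup.quotientKerEquivRange f).symm.toEquiv
  have h2 : Nat.card f.ker = 4 := by
    rw [hk, ← h.inter]
    have h3 := Subgroup.card_map_of_injective (f := E₂.subtype) (K := E₁.subgroupOf E₂) (Subgroup.subtype_injective _)
    rw [Subgroup.subgroupOf_map_subtype] at h3
    exact h3.symm
  rw [h2, hr] at h1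
  omega

theorem fix_zero {K : Type} [Field K] {u : Fin 2 → K}
    (hu : ∀ A : Matrix.SpecialLinearGroup (Fin 2) K, (A : Matrix (Fin 2) (Fin 2) K).mulVec u = u) : u = 0 := by
  have h1 := hu ⟨!![1, 1; 0, 1], by simp [Matrix.det_fin_two_of]⟩
  have h2 := hu ⟨!![1, 0; 1, 1], by simp [Matrix.det_fin_two_of]⟩
  have e1 := congrFun h1 0
  have e2 := congrFun h2 1
  simp [Matrix.mulVec, dotProduct, Fin.sum_univ_two] at e1 e2
  ext i
  fin_cases i
  · exact e2
  · exact e1

/-- **The configuration.** -/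
theorem big_of (h : TwoE S z E₁ E₂) (hw : GL4 E₁ w) {K : Type} [Field K] [Fintype K] (hK : Fintype.card K = 4) :
    ∃ (x : G) (b : Big (groupFusionSystem S) K E₁ (E₁ ⊔ E₂) x), cj x E₁ = E₂ ∧ fixS E₁ b.E = ⊥ := by
  classical
  have hfin := h.finite₁
  obtain ⟨x, hx, hxJ, hx1, hx2⟩ := exists_swap h
  let W : MulAut E₁ := E₁.normalizerMonoidHom ⟨w, hw.wN⟩
  have hWx : ∀ y : E₁, ((W y : E₁) : G) = w * y * w⁻¹ := fun y => rfl
  obtain ⟨ψ, τ, hinj, hτ, hτw, hτn, hτ2⟩ := exists_lin (K := K) hK (fun a : E₁ => Subtype.ext (h.sq₁ a a.2)) h.card₁ W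
    (fun a => Subtype.ext (hw.rel a a.2))
  have haut : ∀ α : MulAut E₁, α ∈ (groupFusionSystem S).autGroup E₁ ↔ ∃ n ∈ normalizer (E₁ : Set G),
      ∀ y : E₁, (α y : G) = n * y * n⁻¹ := by
    intro α
    rw [autGroup_eq h hw, JNorm.mem_autG]
  have hautW : ∀ α ∈ (groupFusionSystem S).autGroup E₁, ∀ y, α (W y) = W (α y) := by
    intro α hα y
    obtain ⟨n, hn, hα⟩ := (haut α).1 hα
    apply Subtype.ext
    rw [hα, hWx, hWx, hα]
    exact hw.comm n hn y y.2
  have hτa : τ.range ≤ (groupFusionSystem S).autGroup E₁ := by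
    rintro _ ⟨A, rfl⟩
    rw [haut]
    apply hw.lift
    intro u v huv
    have h1 : v = W u := Subtype.ext huv
    rw [h1, hτw]
    rfl
  have hnorm : ∀ a ∈ (groupFusionSystem S).autGroup E₁, ∀ e ∈ τ.range, a * e * a⁻¹ ∈ τ.range := by
    rintro a ha _ ⟨A, rfl⟩
    obtain ⟨B, hB⟩ := hτn a (hautW a ha) A
    exact ⟨B, hB.symm⟩
  have hind : ∀ (R : Subgroup G), R ≤ normalizer (E₁ : Set G) → autInducedBy R E₁ ≤ (groupFusionSystem S).autGroup E₁ := by
    intro R hR α hα
    obtain ⟨g, hg, hα⟩ := (H802.mem_autInducedBy_iff R E₁ α).1 hα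
    exact (haut α).2 ⟨g, hR hg, hα⟩
  have hfix : fixS E₁ τ.range = ⊥ := by
    rw [eq_bot_iff]
    rintro _ ⟨y, hy, rfl⟩
    have h1 : toAdd (ψ y) = 0 := by
      apply fix_zero
      intro A
      rw [← hτ]
      have := hy (τ A) ⟨A, rfl⟩
      rw [this]
    have h2 : y = 1 := by
      apply ψ.injective
      rw [map_one]
      exact toAdd.injective (by rw [h1]; rfl)
    rw [h2]
    exact Subgroup.mem_bot.2 rfl
  have hE2 : cj x E₁ = E₂ := hx1
  have hle2 : E₂ ≤ normalizer (E₁ : Set G) := le_sup_right.trans (le_normalizer h)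
  let c : Conf (groupFusionSystem S) K E₁ (E₁ ⊔ E₂) x :=
    { n := 2
      hn := by norm_num
      hK := by rw [hK]; norm_num
      V_le := h.le₁
      fn := fullyNormalized h hw
      nor := normalizerIn_eq h
      cent := centralizerIn_eq h
      el := fun v hv => by rw [pow_two]; exact h.sq₁ v hv
      x_mem := hx
      x_nor := normalizer_sup h hx
      x_not := hxJ
      x_sq := by rw [pow_two]; exact h.mul_outer hx hx hxJ hxJ
      E := τ.range
      E_le := hτa
      ρ := (MonoidHom.ofInjective hinj).symm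
      ψ := ψ.toMonoidHom
      ψ_surj := ψ.surjective
      ψ_ker := by
        intro v
        rw [hfix, Subgroup.mem_bot]
        show ψ v = 1 ↔ _
        rw [map_eq_one_iff _ ψ.injective]
        exact ⟨fun e => by rw [e]; rfl, fun e => Subtype.ext e⟩
      ψ_eq := by
        rintro ⟨_, A, rfl⟩ v
        have h1 : (MonoidHom.ofInjective hinj).symm ⟨τ A, ⟨A, rfl⟩⟩ = A := by
          rw [MulEquiv.symm_apply_eq]
          rfl
        rw [h1]
        exact hτ A v
      A_le := by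
        rw [hE2]
        intro α hα
        have h1 := hautW α (hind E₂ hle2 hα)
        obtain ⟨g, hg, hα⟩ := (H802.mem_autInducedBy_iff E₂ E₁ α).1 hα
        obtain ⟨A, hA⟩ := hτ2 α h1 (by
          ext y
          show (α (α y) : G) = y
          rw [hα, hα]
          have h2 := h.sq₂ g hg
          have h3 : g⁻¹ = g := inv_eq_of_mul_eq_one_left h2
          rw [h3]
          calc g * (g * y * g) * g = (g * g) * y * (g * g) := by group
            _ = y := by rw [h2, one_mul, mul_one])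
        exact ⟨A, hA.symm⟩
      A_card := by rw [hE2, hK]; exact card_induced h hw
      T_nor := fun t ht e he => hnorm t (hind _ (le_normalizer h) ht) e he
      DD := by rw [hfix, bot_inf_eq] }
  refine ⟨x,
    { toConf := c
      q4 := by rw [hK]
      T_eq := by rw [hE2]
      S_idx := relIndex_eq h
      E_nor := hnorm
      typ := Or.inl hfix }, hx1, hfix⟩

end Cfsg.Agent.H442.J3F
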